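import Mathlib

/-!
# Arithmetic of the character columns at a self-centralising Sylow 3-subgroup of order 9

`d` lists the degrees, `a`, `b` (or `a H`, `H : Fin 4`) the integral values on the classes of
elements of order 3.
-/

set_option autoImplicit false

namespace Cfsg.Agent.ThreeNine

open scoped Classical

variable {ι : Type*} [Fintype ι]

theorem abs_le_two {a : ℤ} (h : a ^ 2 ≤ 8) : -2 ≤ a ∧ a ≤ 2 :=
  ⟨by nlinarith, by nlinarith⟩

theorem pair_type (a b : ℤ) (ha : a ^ 2 ≤ 8) (hb : b ^ 2 ≤ 8) (hmod : (a - b) % 3 = 0)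
    (hne : a ≠ b) :
    (a = 1 ∧ b = -2) ∨ (a = -1 ∧ b = 2) ∨ (a = 2 ∧ b = -1) ∨ (a = -2 ∧ b = 1) := by
  obtain ⟨h1, h2⟩ := abs_le_two ha
  obtain ⟨h3, h4⟩ := abs_le_two hb
  omega

theorem endgame_two (u v w N : ℕ) (hu : 8 ≤ u) (hv : 8 ≤ v) (hu9 : (u : ℤ) % 9 = 8)
    (hv9 : (v : ℤ) % 9 = 8) (hw : w + 6 = u + v) (hsum : 51 + u ^ 2 + v ^ 2 + w ^ 2 ≤ N)
    (hE : (N : ℝ) * (3 / 5 - 1 / (u : ℝ) - 1 / (v : ℝ) + 1 / (w : ℝ)) = 162) : N = 360 := by
  by_cases h : u = 8 ∧ v = 8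
  · obtain ⟨rfl, rfl⟩ := h
    obtain rfl : w = 10 := by omega
    have : (N : ℝ) = 360 := by norm_num at hE; linarith
    exact_mod_cast this
  exfalso
  have hu' : 1 / (u : ℝ) ≤ 1 / 8 := one_div_le_one_div_of_le (by norm_num) (by exact_mod_cast hu)
  have hv' : 1 / (v : ℝ) ≤ 1 / 8 := one_div_le_one_div_of_le (by norm_num) (by exact_mod_cast hv)
  have hw' : 0 ≤ 1 / (w : ℝ) := by positivity
  have hN : (765 : ℕ) ≤ N := by
    rcases (show 17 ≤ u ∨ 17 ≤ v by omega) with h' | h'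
    · have : 19 ≤ w := by omega
      nlinarith
    · have : 19 ≤ w := by omega
      nlinarith
  have hN' : (765 : ℝ) ≤ N := by exact_mod_cast hN
  rcases (show 17 ≤ u ∨ 17 ≤ v by omega) with h' | h'
  · have : 1 / (u : ℝ) ≤ 1 / 17 := one_div_le_one_div_of_le (by norm_num) (by exact_mod_cast h')
    nlinarith
  · have : 1 / (v : ℝ) ≤ 1 / 17 := one_div_le_one_div_of_le (by norm_num) (by exact_mod_cast h')
    nlinarith

theorem endgame_one (u v w N : ℕ) (hv : 8 ≤ v) (hw : 8 ≤ w) (hu : u = v + w + 6)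
    (hsum : 51 + u ^ 2 + v ^ 2 + w ^ 2 ≤ N)
    (hE : (N : ℝ) * (3 / 5 - 1 / (u : ℝ) + 1 / (v : ℝ) + 1 / (w : ℝ)) = 162) : False := by
  have hu22 : 22 ≤ u := by omega
  have hu' : 1 / (u : ℝ) ≤ 1 / 22 := one_div_le_one_div_of_le (by norm_num) (by exact_mod_cast hu22)
  have hv' : 0 ≤ 1 / (v : ℝ) := by positivity
  have hw' : 0 ≤ 1 / (w : ℝ) := by positivity
  have hN' : (535 : ℕ) ≤ N := by nlinarith
  have hN'' : (535 : ℝ) ≤ N := by exact_mod_cast hN'
  nlinarith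

theorem endgame (x l₁ l₂ l₃ N : ℕ) (s a₁ a₂ a₃ : ℤ) (hx0 : 0 < x) (hs : s = 1 ∨ s = -1)
    (ha₁ : a₁ = 1 ∨ a₁ = -1) (ha₂ : a₂ = 1 ∨ a₂ = -1) (ha₃ : a₃ = 1 ∨ a₃ = -1)
    (hl₁ : 8 ≤ l₁) (hl₂ : 8 ≤ l₂) (hl₃ : 8 ≤ l₃) (he₁ : (l₁ : ℤ) % 9 = a₁ % 9)
    (he₂ : (l₂ : ℤ) % 9 = a₂ % 9) (he₃ : (l₃ : ℤ) % 9 = a₃ % 9)
    (hx : ((x : ℤ) - 4 * s) % 9 = 0)
    (hD : 1 - s * (x : ℤ) + (l₁ : ℤ) * a₁ + (l₂ : ℤ) * a₂ + (l₃ : ℤ) * a₃ = 0)
    (hsum : 1 + 2 * x ^ 2 + l₁ ^ 2 + l₂ ^ 2 + l₃ ^ 2 ≤ N)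
    (hE : (N : ℝ) * (1 + 2 * (s : ℝ) / x + (a₁ : ℝ) / l₁ + (a₂ : ℝ) / l₂ + (a₃ : ℝ) / l₃) = 162) :
    N = 360 := by
  have hb : ∀ {a : ℤ} {l : ℕ}, (a = 1 ∨ a = -1) → 8 ≤ l →
      -(1 / 8) ≤ (a : ℝ) / (l : ℝ) ∧ (a = 1 → 0 ≤ (a : ℝ) / (l : ℝ)) := by
    intro a l ha hl
    have h1 : 1 / (l : ℝ) ≤ 1 / 8 := one_div_le_one_div_of_le (by norm_num) (by exact_mod_cast hl)
    have h2 : 0 ≤ 1 / (l : ℝ) := by positivity
    rcases ha with rfl | rfl <;> refine ⟨?_, fun h => ?_⟩ <;> push_cast <;>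
      first | linarith | (rw [neg_div]; linarith) | omega
  obtain ⟨b₁, p₁⟩ := hb ha₁ hl₁
  obtain ⟨b₂, p₂⟩ := hb ha₂ hl₂
  obtain ⟨b₃, p₃⟩ := hb ha₃ hl₃
  have hN0 : (0 : ℝ) < N := by
    rcases Nat.eq_zero_or_pos N with h | h
    · subst h; norm_num at hE
    · exact_mod_cast h
  rcases hs with rfl | rfl
  · exfalso
    have hx4 : 4 ≤ x := by omega
    have hN : (225 : ℝ) ≤ N := by
      have : 225 ≤ N := by nlinarith
      exact_mod_cast this
    have hy : 0 ≤ 2 * ((1 : ℤ) : ℝ) / (x : ℝ) := by positivity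
    rcases ha₁ with h | h
    · have := p₁ h; nlinarith
    rcases ha₂ with h' | h'
    · have := p₂ h'; nlinarith
    rcases ha₃ with h'' | h''
    · have := p₃ h''; nlinarith
    subst h h' h''
    omega
  rcases (show x = 5 ∨ 14 ≤ x by omega) with rfl | hx14
  · have hE' : (N : ℝ) * (3 / 5 + (a₁ : ℝ) / l₁ + (a₂ : ℝ) / l₂ + (a₃ : ℝ) / l₃) = 162 := by
      rw [← hE]; push_cast; ring
    rcases ha₁ with rfl | rfl <;> rcases ha₂ with rfl | rfl <;> rcases ha₃ with rfl | rfl <;>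
      push_cast [neg_div] at hE'
    · omega
    · exact (endgame_one l₃ l₁ l₂ N hl₁ hl₂ (by omega) (by linarith)
        (by rw [← hE']; ring)).elim
    · exact (endgame_one l₂ l₁ l₃ N hl₁ hl₃ (by omega) (by linarith)
        (by rw [← hE']; ring)).elim
    · exact endgame_two l₂ l₃ l₁ N hl₂ hl₃ (by omega) (by omega) (by omega) (by linarith)
        (by rw [← hE']; ring)
    · exact (endgame_one l₁ l₂ l₃ N hl₂ hl₃ (by omega) (by linarith)
        (by rw [← hE']; ring)).elim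
    · exact endgame_two l₁ l₃ l₂ N hl₁ hl₃ (by omega) (by omega) (by omega) (by linarith)
        (by rw [← hE']; ring)
    · exact endgame_two l₁ l₂ l₃ N hl₁ hl₂ (by omega) (by omega) (by omega) (by linarith)
        (by rw [← hE']; ring)
    · omega
  · exfalso
    have hN : (585 : ℝ) ≤ N := by
      have : 585 ≤ N := by nlinarith
      exact_mod_cast this
    have hy : -(1 / 7) ≤ 2 * ((-1 : ℤ) : ℝ) / (x : ℝ) := by
      have h1 : 1 / (x : ℝ) ≤ 1 / 14 :=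
        one_div_le_one_div_of_le (by norm_num) (by exact_mod_cast hx14)
      push_cast
      rw [mul_neg, mul_one, neg_div]
      rw [show (2 : ℝ) / x = 2 * (1 / x) by ring]
      linarith
    nlinarith

/-- Two classes: the group has order 360. -/
theorem order_360 (i₀ : ι) (d : ι → ℕ) (a b : ι → ℤ) (N : ℕ)
    (h0d : d i₀ = 1) (h0a : a i₀ = 1) (h0b : b i₀ = 1) (hdpos : ∀ i, 0 < d i)
    (hlin : ∀ i, i ≠ i₀ → d i ≠ 1)
    (haa : ∑ i, a i ^ 2 = 9) (hbb : ∑ i, b i ^ 2 = 9) (hab : ∑ i, a i * b i = 0)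
    (hda : ∑ i, (d i : ℤ) * a i = 0) (hdd : ∑ i, d i ^ 2 = N)
    (hmod9 : ∀ i, ((d i : ℤ) + 4 * a i + 4 * b i) % 9 = 0)
    (hma : ∀ i, (a i - d i) % 3 = 0) (hmb : ∀ i, (b i - d i) % 3 = 0)
    (hE1 : (N : ℝ) * ∑ i, (a i : ℝ) ^ 2 * (b i : ℝ) / (d i : ℝ) = 162)
    (hE2 : (N : ℝ) * ∑ i, (b i : ℝ) ^ 2 * (a i : ℝ) / (d i : ℝ) = 162) : N = 360 := by
  have hsmall : ∀ i, i ≠ i₀ → a i ^ 2 ≤ 8 ∧ b i ^ 2 ≤ 8 := by
    intro i hi
    constructor
    · have h := Finset.add_sum_erase Finset.univ (fun j => a j ^ 2) (Finset.mem_univ i₀)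
      have h' : a i ^ 2 ≤ ∑ j ∈ Finset.univ.erase i₀, a j ^ 2 := Finset.single_le_sum
        (fun j _ => sq_nonneg (a j)) (Finset.mem_erase.2 ⟨hi, Finset.mem_univ i⟩)
      simp only [h0a, haa, one_pow] at h
      linarith
    · have h := Finset.add_sum_erase Finset.univ (fun j => b j ^ 2) (Finset.mem_univ i₀)
      have h' : b i ^ 2 ≤ ∑ j ∈ Finset.univ.erase i₀, b j ^ 2 := Finset.single_le_sum
        (fun j _ => sq_nonneg (b j)) (Finset.mem_erase.2 ⟨hi, Finset.mem_univ i⟩)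
      simp only [h0b, hbb, one_pow] at h
      linarith
  set B := Finset.univ.filter (fun i => a i ≠ b i) with hB
  have hBi₀ : i₀ ∉ B := by simp [hB, h0a, h0b]
  have htype : ∀ i ∈ B, (a i = 1 ∧ b i = -2) ∨ (a i = -1 ∧ b i = 2) ∨ (a i = 2 ∧ b i = -1) ∨
      (a i = -2 ∧ b i = 1) := by
    intro i hi
    have hi0 : i ≠ i₀ := fun e => hBi₀ (e ▸ hi)
    obtain ⟨h1, h2⟩ := hsmall i hi0
    have := hma i
    have := hmb i
    exact pair_type _ _ h1 h2 (by omega) (Finset.mem_filter.1 hi).2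
  have hcard : B.card = 2 := by
    have h18 : ∑ i, (a i - b i) ^ 2 = 18 := by
      simp only [sub_sq, Finset.sum_add_distrib, Finset.sum_sub_distrib, mul_assoc,
        ← Finset.mul_sum]
      rw [haa, hbb, hab]; norm_num
    have hBs : ∑ i ∈ B, (a i - b i) ^ 2 = 18 := by
      rw [← h18]
      refine Finset.sum_subset (Finset.subset_univ _) fun i _ hi => ?_
      simp only [hB, Finset.mem_filter, Finset.mem_univ, true_and, not_not] at hi
      simp [hi]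
    rw [Finset.sum_congr rfl (fun i hi => show (a i - b i) ^ 2 = 9 by
      rcases htype i hi with ⟨e, e'⟩ | ⟨e, e'⟩ | ⟨e, e'⟩ | ⟨e, e'⟩ <;> simp [e, e'])] at hBs
    simp only [Finset.sum_const, nsmul_eq_mul] at hBs
    omega
  obtain ⟨i, j, hij, hBij⟩ := Finset.card_eq_two.1 hcard
  have hiB : i ∈ B := by simp [hBij]
  have hjB : j ∈ B := by simp [hBij]
  set R := Finset.univ.filter (fun k => a k = b k ∧ a k ≠ 0 ∧ k ≠ i₀) with hR
  have hsplit : ∀ {M : Type} [AddCommMonoid M] (F : ι → M),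
      (∀ k, a k = 0 → b k = 0 → F k = 0) → ∑ k, F k = F i₀ + (F i + F j + ∑ k ∈ R, F k) := by
    intro M _ F hF
    have hd1 : Disjoint B R := Finset.disjoint_left.2 fun k hk hk' =>
      (Finset.mem_filter.1 hk).2 (Finset.mem_filter.1 hk').2.1
    rw [← Finset.sum_pair hij, ← hBij, ← Finset.sum_union hd1, ← Finset.sum_insert (a := i₀) (f := F)]
    · refine (Finset.sum_subset (Finset.subset_univ _) fun k _ hk => ?_).symm
      simp only [Finset.mem_insert, Finset.mem_union, hB, hR, Finset.mem_filter, Finset.mem_univ,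
        true_and, not_or, not_and, not_not] at hk
      have he := hk.2.1
      by_cases hz : a k = 0
      · exact hF k hz (he ▸ hz)
      · exact absurd (hk.2.2 he hz) hk.1
    · simp only [Finset.mem_union, not_or]
      exact ⟨hBi₀, by simp [hR]⟩
  have hS1 := hsplit (fun k => a k ^ 2) (fun k h _ => by simp [h])
  have hS2 := hsplit (fun k => b k ^ 2) (fun k _ h => by simp [h])
  have hS3 := hsplit (fun k => a k * b k) (fun k h _ => by simp [h])
  have hS4 := hsplit (fun k => (d k : ℤ) * a k) (fun k h _ => by simp [h])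
  have hRa : ∀ k ∈ R, b k = a k := fun k hk => (Finset.mem_filter.1 hk).2.1.symm
  simp only [haa, hbb, hab, hda, h0a, h0b, h0d] at hS1 hS2 hS3 hS4
  rw [Finset.sum_congr rfl (fun k hk => show a k * b k = a k ^ 2 by rw [hRa k hk]; ring)] at hS3
  rw [Finset.sum_congr rfl (fun k hk => show b k ^ 2 = a k ^ 2 by rw [hRa k hk])] at hS2
  -- name the two exceptional rows
  obtain ⟨p, q, s, t, hs, ht, hpa, hpb, hqa, hqb, hpq⟩ : ∃ p q : ι, ∃ s t : ℤ,
      (s = 1 ∨ s = -1) ∧ (t = 1 ∨ t = -1) ∧ a p = s ∧ b p = -2 * s ∧ a q = -2 * t ∧ b q = t ∧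
      ((p = i ∧ q = j) ∨ (p = j ∧ q = i)) := by
    rcases htype i hiB with ⟨e, e'⟩ | ⟨e, e'⟩ | ⟨e, e'⟩ | ⟨e, e'⟩ <;>
    rcases htype j hjB with ⟨g, g'⟩ | ⟨g, g'⟩ | ⟨g, g'⟩ | ⟨g, g'⟩ <;>
    first
      | (exfalso; simp only [e, e', g, g'] at hS1 hS2 hS3; norm_num at hS1 hS2 hS3; linarith)
      | exact ⟨i, j, a i, b j, by omega, by omega, rfl, by omega, by omega, rfl, Or.inl ⟨rfl, rfl⟩⟩
      | exact ⟨j, i, a j, b i, by omega, by omega, rfl, by omega, by omega, rfl, Or.inr ⟨rfl, rfl⟩⟩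
  have hsplit' : ∀ {M : Type} [AddCommMonoid M] (F : ι → M),
      (∀ k, a k = 0 → b k = 0 → F k = 0) → ∑ k, F k = F i₀ + (F p + F q + ∑ k ∈ R, F k) := by
    intro M _ F hF
    rw [hsplit F hF]
    rcases hpq with ⟨rfl, rfl⟩ | ⟨rfl, rfl⟩
    · rfl
    · rw [add_comm (F p) (F q)]
  have hR3 : ∑ k ∈ R, a k ^ 2 = 3 := by
    rcases hpq with ⟨rfl, rfl⟩ | ⟨rfl, rfl⟩ <;>
      (rw [hpa, hpb, hqa, hqb] at hS3; rcases hs with rfl | rfl <;> rcases ht with rfl | rfl <;>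
        norm_num at hS3 <;> linarith)
  have hunit : ∀ k ∈ R, a k = 1 ∨ a k = -1 := by
    intro k hk
    have h1 : a k ^ 2 ≤ 3 := hR3 ▸ Finset.single_le_sum (fun l _ => sq_nonneg (a l)) hk
    have h2 := (Finset.mem_filter.1 hk).2.2.1
    obtain ⟨h3, h4⟩ := abs_le_two (a := a k) (by linarith)
    rcases eq_or_ne (a k) 2 with e | e
    · rw [e] at h1; norm_num at h1
    rcases eq_or_ne (a k) (-2) with e' | e'
    · rw [e'] at h1; norm_num at h1
    omega
  have hR' : R.card = 3 := by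
    rw [Finset.sum_congr rfl (fun k hk => show a k ^ 2 = 1 by
      rcases hunit k hk with e | e <;> simp [e])] at hR3
    simp only [Finset.sum_const, nsmul_eq_mul, mul_one] at hR3
    exact_mod_cast hR3
  obtain ⟨k₁, k₂, k₃, h12, h13, h23, hRk⟩ := Finset.card_eq_three.1 hR'
  have hdR : ∀ k ∈ R, 8 ≤ d k ∧ (d k : ℤ) % 9 = a k % 9 := by
    intro k hk
    have h1 := hmod9 k
    have h2 := hlin k (Finset.mem_filter.1 hk).2.2.2
    have h3 := hdpos k
    rw [hRa k hk] at h1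
    rcases hunit k hk with e | e <;> rw [e] at h1 ⊢ <;> omega
  have hG : ∀ F : ι → ℝ, (∀ k, a k = 0 → b k = 0 → F k = 0) →
      ∑ k, F k = F i₀ + (F p + F q + (F k₁ + (F k₂ + F k₃))) := by
    intro F hF
    rw [hsplit' F hF, hRk, Finset.sum_insert (by simp [h12, h13]),
      Finset.sum_insert (by simp [h23]), Finset.sum_singleton]
  have hm1 : k₁ ∈ R := by simp [hRk]
  have hm2 : k₂ ∈ R := by simp [hRk]
  have hm3 : k₃ ∈ R := by simp [hRk]
  rw [hG _ (fun k h h' => by simp [h, h']), h0a, h0b, h0d, hpa, hpb, hqa, hqb,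
    hRa k₁ hm1, hRa k₂ hm2, hRa k₃ hm3] at hE1 hE2
  have hN0 : (N : ℝ) ≠ 0 := fun h => by rw [h] at hE1; norm_num at hE1
  have hp0 : (0 : ℝ) < d p := by exact_mod_cast hdpos p
  have hq0 : (0 : ℝ) < d q := by exact_mod_cast hdpos q
  -- the two exceptional rows have the same sign and degree
  have hst : (s : ℝ) / d p = (t : ℝ) / d q := by
    have h := mul_left_cancel₀ hN0 (hE1.trans hE2.symm)
    push_cast at h
    rcases hs with rfl | rfl <;> rcases ht with rfl | rfl <;>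
      (field_simp at h ⊢; push_cast at h ⊢; nlinarith)
  have hts : t = s ∧ d q = d p := by
    rw [div_eq_div_iff hp0.ne' hq0.ne'] at hst
    have h' : s * (d q : ℤ) = t * (d p : ℤ) := by exact_mod_cast hst
    have := hdpos p; have := hdpos q
    rcases hs with rfl | rfl <;> rcases ht with rfl | rfl <;> omega
  obtain ⟨hts', hdq⟩ := hts
  rw [hts'] at hqa hqb hE1
  have hD := hsplit' (fun k => (d k : ℤ) * a k) (fun k h _ => by simp [h])
  rw [hda, h0a, h0d, hpa, hqa, hdq, hRk, Finset.sum_insert (by simp [h12, h13]),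
    Finset.sum_insert (by simp [h23]), Finset.sum_singleton] at hD
  have hsum : 1 + (d p ^ 2 + d q ^ 2 + (d k₁ ^ 2 + (d k₂ ^ 2 + d k₃ ^ 2))) ≤ N := by
    rw [← hdd]
    have hne : ∀ {u v : ι} (f : ι → ℤ), f u ≠ f v → u ≠ v := fun f h e => h (by rw [e])
    have hpne : p ≠ i₀ ∧ q ≠ i₀ := by
      constructor <;> intro e
      · rw [e, h0a] at hpa; rw [e, h0b] at hpb; omega
      · rw [e, h0a] at hqa; rw [e, h0b] at hqb; omega
    have hpqne : p ≠ q := by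
      rcases hpq with ⟨rfl, rfl⟩ | ⟨rfl, rfl⟩
      · exact hij
      · exact hij.symm
    have hpR : ∀ k ∈ R, p ≠ k ∧ q ≠ k := fun k hk => by
      constructor <;> intro e
      · have := hRa k hk; rw [← e, hpa, hpb] at this; omega
      · have := hRa k hk; rw [← e, hqa, hqb] at this; omega
    have hk0 : ∀ k ∈ R, i₀ ≠ k := fun k hk e => (Finset.mem_filter.1 hk).2.2.2 e.symm
    calc 1 + (d p ^ 2 + d q ^ 2 + (d k₁ ^ 2 + (d k₂ ^ 2 + d k₃ ^ 2)))
        = ∑ k ∈ ({i₀, p, q, k₁, k₂, k₃} : Finset ι), d k ^ 2 := by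
          rw [Finset.sum_insert, Finset.sum_insert, Finset.sum_insert, Finset.sum_insert,
            Finset.sum_insert, Finset.sum_singleton, h0d]
          · ring
          · simp [h23]
          · simp [h12, h13]
          · simp [(hpR k₁ hm1).2, (hpR k₂ hm2).2, (hpR k₃ hm3).2]
          · simp [hpqne, (hpR k₁ hm1).1, (hpR k₂ hm2).1, (hpR k₃ hm3).1]
          · simp [hpne.1.symm, hpne.2.symm, hk0 k₁ hm1, hk0 k₂ hm2, hk0 k₃ hm3]
      _ ≤ _ := Finset.sum_le_sum_of_subset (Finset.subset_univ _)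
  have hx : ((d p : ℤ) - 4 * s) % 9 = 0 := by
    have := hmod9 p; rw [hpa, hpb] at this; omega
  have hE : (N : ℝ) * (1 + 2 * (s : ℝ) / d p + (a k₁ : ℝ) / d k₁ + (a k₂ : ℝ) / d k₂ +
      (a k₃ : ℝ) / d k₃) = 162 := by
    rw [hdq] at hE1
    have hcube : ∀ k ∈ R, (a k : ℝ) ^ 2 * (a k : ℝ) = a k := fun k hk => by
      rcases hunit k hk with e | e <;> simp [e]
    rw [hcube k₁ hm1, hcube k₂ hm2, hcube k₃ hm3] at hE1
    rw [← hE1]
    push_cast
    rcases hs with rfl | rfl <;> (push_cast; ring)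
  obtain ⟨hl1, he1⟩ := hdR k₁ hm1
  obtain ⟨hl2, he2⟩ := hdR k₂ hm2
  obtain ⟨hl3, he3⟩ := hdR k₃ hm3
  rw [hdq] at hsum
  exact endgame (d p) (d k₁) (d k₂) (d k₃) N s (a k₁) (a k₂) (a k₃) (hdpos p) hs
    (hunit k₁ hm1) (hunit k₂ hm2) (hunit k₃ hm3) hl1 hl2 hl3 he1 he2 he3 hx
    (by push_cast at hD ⊢; linear_combination -hD) (by linarith [hsum]) hE

/-- The possible rows on the four cyclic subgroups. -/
theorem row_type : ∀ a ∈ Finset.Icc (-2 : ℤ) 2, ∀ b ∈ Finset.Icc (-2 : ℤ) 2,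
    ∀ c ∈ Finset.Icc (-2 : ℤ) 2, ∀ e ∈ Finset.Icc (-2 : ℤ) 2,
    (a - b) % 3 = 0 → (a - c) % 3 = 0 → (a - e) % 3 = 0 →
    (a = 0 ∧ b = 0 ∧ c = 0 ∧ e = 0) ∨ ((a = 1 ∨ a = -1) ∧ b = a ∧ c = a ∧ e = a) ∨
    ((a + b + c + e) ^ 2 = 1 ∧ a ^ 2 + b ^ 2 + c ^ 2 + e ^ 2 = 7 ∧
      (a = a + b + c + e ∨ a = -2 * (a + b + c + e)) ∧
      (b = a + b + c + e ∨ b = -2 * (a + b + c + e)) ∧
      (c = a + b + c + e ∨ c = -2 * (a + b + c + e)) ∧
      (e = a + b + c + e ∨ e = -2 * (a + b + c + e)) ∧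
      (a = -2 * (a + b + c + e) ∨ b = -2 * (a + b + c + e) ∨ c = -2 * (a + b + c + e) ∨
        e = -2 * (a + b + c + e)) ∧
      (a ^ 2 + b ^ 2 + c ^ 2 + e ^ 2) * (a + b + c + e) - (a ^ 3 + b ^ 3 + c ^ 3 + e ^ 3) =
        12 * (a + b + c + e)) ∨
    25 ≤ (a + b + c + e) ^ 2 ∨
    ((a + b + c + e) ^ 2 = 4 ∧ a ^ 2 + b ^ 2 + c ^ 2 + e ^ 2 = 10) := by
  decide +kernel

/-- Four classes are impossible. -/
theorem not_four (i₀ : ι) (d : ι → ℕ) (a : ι → Fin 4 → ℤ) (h0d : d i₀ = 1) (h0a : ∀ H, a i₀ H = 1)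
    (hdpos : ∀ i, 0 < d i) (hlin : ∀ i, i ≠ i₀ → d i ≠ 1)
    (horth : ∀ H K, ∑ i, a i H * a i K = if H = K then 9 else 0)
    (hda : ∀ H, ∑ i, (d i : ℤ) * a i H = 0)
    (hmod9 : ∀ i, ((d i : ℤ) + 2 * ∑ H, a i H) % 9 = 0)
    (hmod3 : ∀ i H, (a i H - d i) % 3 = 0)
    (hT : ∑ i, (((∑ H, a i H ^ 2) * (∑ H, a i H) - ∑ H, a i H ^ 3 : ℤ) : ℝ) / (d i : ℝ) = 0) :
    False := by
  have hcol : ∀ H, ∑ i, a i H ^ 2 = 9 := fun H => by
    simpa [sq] using horth H H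
  have hsmall : ∀ i, i ≠ i₀ → ∀ H, a i H ∈ Finset.Icc (-2 : ℤ) 2 := by
    intro i hi H
    have h := Finset.add_sum_erase Finset.univ (fun j => a j H ^ 2) (Finset.mem_univ i₀)
    have h' : a i H ^ 2 ≤ ∑ j ∈ Finset.univ.erase i₀, a j H ^ 2 := Finset.single_le_sum
      (fun j _ => sq_nonneg (a j H)) (Finset.mem_erase.2 ⟨hi, Finset.mem_univ i⟩)
    simp only [h0a, hcol, one_pow] at h
    exact Finset.mem_Icc.2 (abs_le_two (by linarith))
  let P : ι → ℤ := fun i => ∑ H, a i H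
  let Q : ι → ℤ := fun i => ∑ H, a i H ^ 2
  have hP : ∑ i, P i ^ 2 = 36 := by
    simp only [P, sq, Finset.sum_mul_sum]
    rw [Finset.sum_comm, Finset.sum_congr rfl (fun H _ => Finset.sum_comm)]
    simp [horth]
  have hQ : ∑ i, Q i = 36 := by
    simp only [Q]
    rw [Finset.sum_comm]
    simp [hcol]
  have hPle : ∀ i, i ≠ i₀ → P i ^ 2 ≤ 20 := by
    intro i hi
    have h := Finset.add_sum_erase Finset.univ (fun j => P j ^ 2) (Finset.mem_univ i₀)
    have h' : P i ^ 2 ≤ ∑ j ∈ Finset.univ.erase i₀, P j ^ 2 := Finset.single_le_sum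
      (fun j _ => sq_nonneg (P j)) (Finset.mem_erase.2 ⟨hi, Finset.mem_univ i⟩)
    have h0 : P i₀ = 4 := by simp [P, h0a]
    rw [hP, h0] at h
    linarith
  have htype : ∀ i, i ≠ i₀ → (∀ H, a i H = 0) ∨
      ((a i 0 = 1 ∨ a i 0 = -1) ∧ ∀ H, a i H = a i 0) ∨
      (P i ^ 2 = 1 ∧ Q i = 7 ∧ (∀ H, a i H = P i ∨ a i H = -2 * P i) ∧
        (∃ H, a i H = -2 * P i) ∧ Q i * P i - ∑ H, a i H ^ 3 = 12 * P i) ∨
      (P i ^ 2 = 4 ∧ Q i = 10) := by
    intro i hi
    have hm := hmod3 i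
    have := row_type _ (hsmall i hi 0) _ (hsmall i hi 1) _ (hsmall i hi 2) _ (hsmall i hi 3)
      (by have := hm 0; have := hm 1; omega) (by have := hm 0; have := hm 2; omega)
      (by have := hm 0; have := hm 3; omega)
    rcases this with ⟨h0, h1, h2, h3⟩ | ⟨h0, h1, h2, h3⟩ | ⟨h1, h2, ea, eb, ec, ee, hex, h4⟩ | h |
      ⟨h1, h2⟩
    · left; intro H; fin_cases H <;> assumption
    · right; left
      exact ⟨h0, fun H => by fin_cases H <;> first | rfl | assumption⟩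
    · right; right; left
      simp only [P, Q, Fin.sum_univ_four]
      refine ⟨h1, h2, fun H => by fin_cases H <;> assumption, ?_, h4⟩
      rcases hex with h | h | h | h
      exacts [⟨0, h⟩, ⟨1, h⟩, ⟨2, h⟩, ⟨3, h⟩]
    · exfalso
      have := hPle i hi
      simp only [P, Fin.sum_univ_four] at this
      linarith
    · right; right; right
      simp only [P, Q, Fin.sum_univ_four]
      exact ⟨h1, h2⟩
  set K := Finset.univ.filter (fun i => i ≠ i₀ ∧ (P i ^ 2 = 16)) with hK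
  set A := Finset.univ.filter (fun i => i ≠ i₀ ∧ P i ^ 2 = 1) with hA
  set C := Finset.univ.filter (fun i => i ≠ i₀ ∧ P i ^ 2 = 4) with hC
  have hKp : ∀ i ∈ K, (a i 0 = 1 ∨ a i 0 = -1) ∧ ∀ H, a i H = a i 0 := by
    intro i hi
    obtain ⟨hi0, hP16⟩ := (Finset.mem_filter.1 hi).2
    rcases htype i hi0 with h | h | h | h
    · simp [P, h] at hP16
    · exact h
    · rw [h.1] at hP16; norm_num at hP16
    · rw [h.1] at hP16; norm_num at hP16
  have hAp : ∀ i ∈ A, P i ^ 2 = 1 ∧ Q i = 7 ∧ (∀ H, a i H = P i ∨ a i H = -2 * P i) ∧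
      (∃ H, a i H = -2 * P i) ∧ Q i * P i - ∑ H, a i H ^ 3 = 12 * P i := by
    intro i hi
    obtain ⟨hi0, hP1⟩ := (Finset.mem_filter.1 hi).2
    rcases htype i hi0 with h | h | h | h
    · simp [P, h] at hP1
    · exfalso
      simp only [P, h.2, Finset.sum_const, Finset.card_univ, Fintype.card_fin, nsmul_eq_mul] at hP1
      rcases h.1 with e | e <;> rw [e] at hP1 <;> norm_num at hP1
    · exact h
    · rw [h.1] at hP1; norm_num at hP1
  have hCp : ∀ i ∈ C, Q i = 10 := by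
    intro i hi
    obtain ⟨hi0, hP4⟩ := (Finset.mem_filter.1 hi).2
    rcases htype i hi0 with h | h | h | h
    · simp [P, h] at hP4
    · exfalso
      simp only [P, h.2, Finset.sum_const, Finset.card_univ, Fintype.card_fin, nsmul_eq_mul] at hP4
      rcases h.1 with e | e <;> rw [e] at hP4 <;> norm_num at hP4
    · rw [h.1] at hP4; norm_num at hP4
    · exact h.2
  have hsplit : ∀ {M : Type} [AddCommMonoid M] (F : ι → M), (∀ i, (∀ H, a i H = 0) → F i = 0) →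
      ∑ i, F i = F i₀ + ((∑ i ∈ K, F i + ∑ i ∈ A, F i) + ∑ i ∈ C, F i) := by
    intro M _ F hF
    have h1 : Disjoint K A := Finset.disjoint_left.2 fun i hi hi' => by
      simp only [hK, hA, Finset.mem_filter] at hi hi'
      rw [hi.2.2] at hi'; norm_num at hi'
    have h2 : Disjoint (K ∪ A) C := Finset.disjoint_left.2 fun i hi hi' => by
      simp only [hK, hA, hC, Finset.mem_union, Finset.mem_filter] at hi hi'
      rcases hi with hi | hi <;> (rw [hi.2.2] at hi'; norm_num at hi')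
    rw [← Finset.sum_union h1, ← Finset.sum_union h2, ← Finset.sum_insert (a := i₀) (f := F)]
    · refine (Finset.sum_subset (Finset.subset_univ _) fun i _ hi => hF i ?_).symm
      simp only [Finset.mem_insert, Finset.mem_union, hK, hA, hC, Finset.mem_filter,
        Finset.mem_univ, true_and, not_or, not_and] at hi
      rcases htype i hi.1 with h | h | h | h
      · exact h
      · exfalso; apply hi.2.1.1 hi.1
        simp only [P, h.2, Finset.sum_const, Finset.card_univ, Fintype.card_fin, nsmul_eq_mul]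
        rcases h.1 with e | e <;> rw [e] <;> norm_num
      · exact absurd h.1 (hi.2.1.2 hi.1)
      · exact absurd h.1 (hi.2.2 hi.1)
    · simp [hK, hA, hC]
  have hP0 : P i₀ = 4 := by simp [P, h0a]
  have hQ0 : Q i₀ = 4 := by simp [Q, h0a]
  have hQK : ∀ i ∈ K, Q i = 4 := fun i hi => by
    obtain ⟨h1, h2⟩ := hKp i hi
    simp only [Q, h2]
    rcases h1 with e | e <;> simp [e]
  have e1 := hsplit (fun i => P i ^ 2) (fun i h => by simp [P, h])
  have e2 := hsplit Q (fun i h => by simp [Q, h])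
  rw [hP, hP0, Finset.sum_congr rfl (fun i hi => ((Finset.mem_filter.1 hi).2.2 :
      P i ^ 2 = 16)), Finset.sum_congr rfl (fun i hi => (hAp i hi).1),
    Finset.sum_congr rfl (fun i hi => ((Finset.mem_filter.1 hi).2.2 : P i ^ 2 = 4))] at e1
  rw [hQ, hQ0, Finset.sum_congr rfl hQK, Finset.sum_congr rfl (fun i hi => (hAp i hi).2.1),
    Finset.sum_congr rfl hCp] at e2
  simp only [Finset.sum_const, nsmul_eq_mul] at e1 e2
  norm_num at e1 e2
  have hc : K.card = 1 ∧ A.card = 4 ∧ C.card = 0 := by omega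
  obtain ⟨i₁, hi₁⟩ := Finset.card_eq_one.1 hc.1
  have hCe : C = ∅ := Finset.card_eq_zero.1 hc.2.2
  obtain ⟨hu, hconst⟩ := hKp i₁ (by simp [hi₁])
  set u := a i₁ 0 with hu'
  -- the columns
  have hz : ∀ H, 1 + (d i₁ : ℤ) * u + ∑ i ∈ A, (d i : ℤ) * a i H = 0 := by
    intro H
    have h := hsplit (fun i => (d i : ℤ) * a i H) (fun i h => by simp [h H])
    rw [hda H, h0a, h0d, hi₁, hCe, Finset.sum_singleton, Finset.sum_empty, hconst H] at h
    push_cast at h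
    linarith
  have huniq : ∀ H, ∀ i ∈ A, a i H = -2 * P i → ∀ j ∈ A, j ≠ i → a j H = P j := by
    intro H i hi hiH j hj hne
    have h := hsplit (fun k => a k H ^ 2) (fun k h => by simp [h H])
    rw [hcol H, h0a, hi₁, hCe, Finset.sum_singleton, Finset.sum_empty, hconst H] at h
    refine ((hAp j hj).2.2.1 H).resolve_right fun hjH => ?_
    have h4 : ∀ k ∈ A, a k H ^ 2 = 1 + (if a k H = -2 * P k then 3 else 0) := by
      intro k hk
      obtain ⟨hk1, -, hk3, -, -⟩ := hAp k hk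
      split_ifs with hh
      · rw [hh, mul_pow, hk1]; norm_num
      · rw [(hk3 H).resolve_right hh, hk1]; norm_num
    have h5 : (2 : ℤ) * 3 ≤ ∑ k ∈ A, (if a k H = -2 * P k then 3 else 0) := by
      calc (2 : ℤ) * 3 = ∑ k ∈ ({i, j} : Finset ι), (if a k H = -2 * P k then 3 else 0) := by
            rw [Finset.sum_pair hne.symm, if_pos hiH, if_pos hjH]; norm_num
        _ ≤ _ := Finset.sum_le_sum_of_subset_of_nonneg
            (Finset.insert_subset hi (Finset.singleton_subset_iff.2 hj))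
            (fun k _ _ => by split_ifs <;> norm_num)
    rw [Finset.sum_congr rfl h4, Finset.sum_add_distrib] at h
    simp only [Finset.sum_const, hc.2.1, nsmul_eq_mul] at h
    simp only [neg_mul] at h h5
    rcases hu with e | e <;> rw [e] at h <;> norm_num at h <;> linarith
  have hzeq : ∀ i ∈ A, 3 * ((d i : ℤ) * P i) = 1 + (d i₁ : ℤ) * u + ∑ j ∈ A, (d j : ℤ) * P j := by
    intro i hi
    obtain ⟨-, -, -, ⟨H, hH⟩, -⟩ := hAp i hi
    have h := hz H
    rw [← Finset.add_sum_erase _ _ hi, hH, Finset.sum_congr rfl (fun j hj => by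
      rw [huniq H i hi hH j (Finset.mem_of_mem_erase hj) (Finset.ne_of_mem_erase hj)])] at h
    rw [← Finset.add_sum_erase _ _ hi]
    linarith
  have hzval : ∀ i ∈ A, (d i : ℤ) * P i = -(1 + (d i₁ : ℤ) * u) := by
    intro i hi
    have h := hzeq i hi
    rw [Finset.sum_congr rfl (fun j hj => show (d j : ℤ) * P j = (d i : ℤ) * P i by
      have := hzeq j hj; linarith), Finset.sum_const, hc.2.1, nsmul_eq_mul] at h
    push_cast at h
    linarith
  have hT' := hsplit (fun i => (((∑ H, a i H ^ 2) * (∑ H, a i H) - ∑ H, a i H ^ 3 : ℤ) : ℝ) /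
    (d i : ℝ)) (fun i h => by simp [h])
  rw [hT, hi₁, hCe, Finset.sum_singleton, Finset.sum_empty] at hT'
  set z := -(1 + (d i₁ : ℤ) * u) with hz'
  have hA' : ∀ i ∈ A, (((∑ H, a i H ^ 2) * (∑ H, a i H) - ∑ H, a i H ^ 3 : ℤ) : ℝ) / (d i : ℝ) =
      12 / (z : ℝ) := by
    intro i hi
    obtain ⟨hsq, -, -, -, h12⟩ := hAp i hi
    rw [show (∑ H, a i H ^ 2) * (∑ H, a i H) - ∑ H, a i H ^ 3 = 12 * P i from h12]
    have hzd : (z : ℝ) = (d i : ℝ) * (P i : ℝ) := by rw [← hzval i hi]; push_cast; rfl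
    have hd : (d i : ℝ) ≠ 0 := Nat.cast_ne_zero.2 (hdpos i).ne'
    rw [hzd]
    rcases sq_eq_one_iff.1 hsq with e | e <;> rw [e] <;> push_cast <;> field_simp
  have hK' : (((∑ H, a i₁ H ^ 2) * (∑ H, a i₁ H) - ∑ H, a i₁ H ^ 3 : ℤ) : ℝ) / (d i₁ : ℝ) =
      12 * (u : ℝ) / (d i₁ : ℝ) := by
    simp only [hconst, Fin.sum_univ_four]
    rcases hu with e | e <;> rw [e] <;> norm_num
  rw [Finset.sum_congr rfl hA', Finset.sum_const, hc.2.1, hK', nsmul_eq_mul] at hT'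
  simp only [h0a, h0d, Fin.sum_univ_four] at hT'
  norm_num at hT'
  have hd8 : 8 ≤ d i₁ := by
    have h := hmod9 i₁
    have h1 := hlin i₁ (Finset.mem_filter.1 (show i₁ ∈ K by simp [hi₁])).2.1
    have h2 := hdpos i₁
    simp only [hconst, Fin.sum_univ_four] at h
    rcases hu with e | e <;> rw [e] at h <;> omega
  have hd8' : (8 : ℝ) ≤ d i₁ := by exact_mod_cast hd8
  have hb : 1 / (d i₁ : ℝ) ≤ 1 / 8 := one_div_le_one_div_of_le (by norm_num) hd8'
  have hb0 : 0 ≤ 1 / (d i₁ : ℝ) := by positivity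
  have hzr : (z : ℝ) = -(1 + (d i₁ : ℝ) * (u : ℝ)) := by rw [hz']; push_cast; rfl
  rw [hzr] at hT'
  rcases hu with e | e <;> rw [e] at hT' <;> norm_num at hT'
  · field_simp at hT'
    have hq := div_mul_cancel₀ ((d i₁ : ℝ) * 4) (show -(d i₁ : ℝ) + -1 ≠ 0 by linarith)
    nlinarith
  · field_simp at hT'
    have hq := div_mul_cancel₀ ((d i₁ : ℝ) * 4) (show (d i₁ : ℝ) + -1 ≠ 0 by linarith)
    nlinarith

end Cfsg.Agent.ThreeNine
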