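import Cfsg.Agent.ThreeNine.Setup
import Cfsg.Agent.ThreeNine.Arith

/-!
# A simple group with two classes at such a Sylow 3-subgroup has order 360
-/

set_option autoImplicit false
set_option linter.unusedSectionVars false

namespace Cfsg.Agent.ThreeNine

open Cfsg Cfsg.Agent Subgroup
open scoped Classical ComplexConjugate

universe u

variable {G : Type u} [Group G] [Fintype G] {S : Subgroup G}

/-- The data read off from the character table on the coordinate classes. -/
theorem exists_data (h : Nine S) {e f : G} (he : e ∈ S) (hf : f ∈ S)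
    (hb : Function.Bijective (fun p => (⟨coord e f p, coord_mem he hf p⟩ : S)))
    (hinv : ∀ s ∈ S, IsConj s s⁻¹) (hperf : commutator G = ⊤) :
    ∃ (d : IrrCharacter G → ℕ) (a : IrrCharacter G → Fin 3 × Fin 3 → ℤ),
      (∀ χ : IrrCharacter G, (χ : G → ℂ) 1 = d χ) ∧ (∀ (χ : IrrCharacter G) p, (χ : G → ℂ) (coord e f p) = a χ p) ∧
      (∀ χ, 0 < d χ) ∧ d (Char.trivialIrr G) = 1 ∧ (∀ p, a (Char.trivialIrr G) p = 1) ∧
      (∀ χ, χ ≠ Char.trivialIrr G → d χ ≠ 1) ∧ (∀ χ p, a χ (-p) = a χ p) ∧
      (∀ χ, ∃ m : ℕ, ∑ p : Fin 3 × Fin 3, a χ p = 9 * m) ∧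
      (∀ χ p, (a χ p - d χ) % 3 = 0) ∧ (∀ χ, a χ 0 = d χ) ∧
      (∀ p q, p ≠ 0 → q ≠ 0 → ∑ χ, a χ p * a χ q =
        if IsConj (coord e f p) (coord e f q) then 9 else 0) ∧
      (∀ p, p ≠ 0 → ∑ χ, (d χ : ℤ) * a χ p = 0) ∧ ∑ χ, d χ ^ 2 = Nat.card G ∧
      ∀ (p₀ r : Fin 3 × Fin 3) (R : Fin 3 × Fin 3 → Prop) [DecidablePred R], p₀ ≠ 0 → r ≠ 0 →
        (∀ p, IsConj (coord e f p₀) (coord e f p) ↔ R p) → ¬ R r →
        (Nat.card G : ℝ) * ∑ χ, (a χ p₀ : ℝ) ^ 2 * (a χ r : ℝ) / (d χ : ℝ) =
          81 * ((Finset.univ.filter fun q : (Fin 3 × Fin 3) × (Fin 3 × Fin 3) =>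
            R q.1 ∧ R q.2 ∧ q.1 + q.2 = r).card : ℝ) := by
  have hd : ∀ χ : IrrCharacter G, ∃ n : ℕ, 0 < n ∧ (χ : G → ℂ) 1 = n := fun χ =>
    Char.irr_one_pos χ.2
  choose d hd0 hd1 using hd
  have h3 : ∀ p, coord e f p ^ 3 = 1 := fun p => h.exp3 _ (coord_mem he hf p)
  have hval : ∀ (χ : IrrCharacter G) p, ∃ a : ℤ, (χ : G → ℂ) (coord e f p) = a ∧
      (a - d χ) % 3 = 0 := fun χ p =>
    value_three (Char.isCharacter_of_irr χ.2) (h3 p) (h.real hinv (h3 p)) (hd1 χ)
  choose a ha hamod using hval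
  have hinj : Function.Injective (coord e f) := fun p q hpq => hb.1 (Subtype.ext hpq)
  have hne : ∀ p, p ≠ 0 → coord e f p ≠ 1 := fun p hp hp' =>
    hp (hinj (hp'.trans (coord_zero e f).symm))
  refine ⟨d, a, hd1, ha, hd0, ?_, fun p => ?_, fun χ hχ hd' => hχ ?_, fun χ p => ?_, fun χ => ?_,
    hamod, fun χ => ?_, fun p q hp hq => ?_, fun p hp => ?_, ?_, ?_⟩
  · have := hd1 (Char.trivialIrr G)
    simp [Char.trivialIrr] at this
    exact_mod_cast this.symm
  · have := ha (Char.trivialIrr G) p
    simp [Char.trivialIrr] at this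
    exact_mod_cast this.symm
  · refine Subtype.ext (funext fun g => ?_)
    exact Char.linear_eq_one_of_mem_commutator (Char.isCharacter_of_irr χ.2)
      (by rw [hd1, hd', Nat.cast_one]) (hperf ▸ mem_top g)
  · have h1 := ha χ (-p)
    rw [coord_neg h he hf, Char.irr_inv χ.2, ha, map_intCast] at h1
    exact_mod_cast h1.symm
  · obtain ⟨m, hm⟩ := sum_dvd h (Char.isCharacter_of_irr χ.2) he hf hb
    refine ⟨m, ?_⟩
    simp only [ha] at hm
    exact_mod_cast hm
  · have h1 := ha χ 0
    rw [coord_zero, hd1] at h1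
    exact_mod_cast h1.symm
  · have h1 := Char.sum_irr_mul_conj (coord e f p) (coord e f q)
    simp only [ha, map_intCast] at h1
    rw [h.cent _ (coord_mem he hf p) (hne p hp), h.card] at h1
    split_ifs at h1 ⊢ with hc <;> exact_mod_cast h1
  · have h1 := Char.sum_irr_degree_mul (coord e f p)
    rw [if_neg (hne p hp)] at h1
    simp only [ha, hd1] at h1
    exact_mod_cast h1
  · have h1 := Char.sum_irr_degree_sq (G := G)
    simp only [hd1] at h1
    exact_mod_cast h1
  · intro p₀ r R _ hp₀ hr hR hRr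
    have h1 := Cfsg.Agent.S0840.result (coord e f p₀) (coord e f p₀) (coord e f r)
    rw [card_pairs h he hf hb hinv p₀ r hr R hR hRr, finsum_eq_sum_of_fintype] at h1
    have hcl := card_class h (coord_mem he hf p₀) (hne p₀ hp₀)
    set K := Nat.card {x : G // IsConj (coord e f p₀) x}
    simp only [ha, hd1, map_intCast] at h1
    rw [← hcl] at h1 ⊢
    haveI : Nonempty {x : G // IsConj (coord e f p₀) x} := ⟨⟨coord e f p₀, IsConj.refl _⟩⟩
    have hK : (K : ℂ) ≠ 0 := Nat.cast_ne_zero.2 Nat.card_pos.ne'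
    have h2 : (((9 * K : ℕ) : ℂ)) * ∑ χ : IrrCharacter G,
        (a χ p₀ : ℂ) ^ 2 * (a χ r : ℂ) / (d χ : ℂ) = 81 * ((Finset.univ.filter fun q :
          (Fin 3 × Fin 3) × (Fin 3 × Fin 3) => R q.1 ∧ R q.2 ∧ q.1 + q.2 = r).card : ℂ) := by
      rw [h1]
      push_cast
      rw [Finset.mul_sum, Finset.mul_sum, Finset.mul_sum]
      refine Finset.sum_congr rfl fun χ _ => ?_
      field_simp
      ring
    apply Complex.ofReal_injective
    push_cast
    push_cast at h2
    exact h2

theorem order_eq_360 [IsSimpleGroup G] (h : Nine S)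
    (hclasses : ∃ a b : G, orderOf a = 3 ∧ orderOf b = 3 ∧ ∀ g : G, g * a * g⁻¹ ≠ b) :
    Nat.card G = 360 := by
  haveI : Fact (Nat.Prime 3) := ⟨Nat.prime_three⟩
  obtain ⟨P, hP⟩ := h.sylow
  obtain ⟨m, hm, hm8, horb⟩ := orbit_card h
  obtain ⟨e, he, he1⟩ : ∃ e ∈ S, e ≠ 1 := by
    haveI : Nontrivial S := Finite.one_lt_card_iff_nontrivial.1 (by rw [h.card]; norm_num)
    obtain ⟨x, hx⟩ := exists_ne (1 : S)
    exact ⟨x, x.2, fun e' => hx (Subtype.ext e')⟩
  have hself : ∀ s : S, ∀ t : S, IsConj (s : G) t → m = 1 → (s : G) ≠ 1 → t = s := by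
    intro s t hst hm1 hs1
    have h1 := horb s s.2 hs1
    rw [hm1, Nat.card_eq_one_iff_unique] at h1
    exact (congrArg Subtype.val (h1.1.elim ⟨t, hst⟩ ⟨s, IsConj.refl _⟩) : _)
  have hSne : S ≠ ⊤ := fun htop => by
    have hcomm : ∀ x y : G, Commute x y := fun x y =>
      h.commute (htop ▸ mem_top x) (htop ▸ mem_top y)
    have hn : (zpowers e).Normal := ⟨fun x hx g => by
      rwa [(hcomm g x).eq, mul_inv_cancel_right]⟩
    rcases hn.eq_bot_or_eq_top with h' | h'
    · exact he1 (zpowers_eq_bot.1 h')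
    · have h9 : Nat.card G = 9 := by rw [← Subgroup.card_top, ← htop, h.card]
      have h3 := orderOf_dvd_of_pow_eq_one (h.exp3 e he)
      rw [← Nat.card_zpowers, h', Subgroup.card_top, h9] at h3
      norm_num at h3
  have hm1 : m ≠ 1 := by
    intro hm1
    have hPc : normalizer ((P : Subgroup G) : Set G) ≤ centralizer ((P : Subgroup G) : Set G) := by
      rw [hP]
      intro n hn
      refine mem_centralizer_iff.2 fun s hs => ?_
      by_cases hs1 : s = 1
      · simp [hs1]
      · have h1 := hself ⟨s, hs⟩ ⟨n * s * n⁻¹, (mem_normalizer_iff.1 hn s).1 hs⟩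
          (isConj_iff.2 ⟨n, rfl⟩) hm1 hs1
        exact (mul_inv_eq_iff_eq_mul.1 (congrArg Subtype.val h1)).symm
    have hc := MonoidHom.ker_transferSylow_isComplement' P hPc
    rcases (inferInstance : (MonoidHom.transferSylow P hPc).ker.Normal).eq_bot_or_eq_top with
      h' | h'
    · rw [h', isComplement'_bot_left] at hc
      exact hSne (hP ▸ hc)
    · rw [h', isComplement'_top_left] at hc
      rw [hP] at hc
      have := h.card
      rw [hc, Subgroup.card_bot] at this
      norm_num at this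
  have hperf : commutator G = ⊤ := by
    rcases (inferInstance : (commutator G).Normal).eq_bot_or_eq_top with h' | h'
    · exfalso
      have hcomm : ∀ x y : G, Commute x y := fun x y => by
        have := Subgroup.commutator_mem_commutator (mem_top x) (mem_top y)
        rw [← commutator_def, h', mem_bot] at this
        exact commutatorElement_eq_one_iff_commute.1 this
      exact hSne (eq_top_iff.2 fun x _ => h.mem_of_commute he he1 (hcomm x e))
    · exact h'
  have h248 : m = 2 ∨ m = 4 ∨ m = 8 := by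
    have := Nat.le_of_dvd (by norm_num) hm8
    have hm0 : m ≠ 0 := fun h0 => by
      subst h0
      simp at hm8
    interval_cases m <;> simp_all
  -- an involution inverts `S`
  have hinv : ∀ s ∈ S, IsConj s s⁻¹ := by
    haveI : Fact (Nat.Prime 2) := ⟨Nat.prime_two⟩
    have h2 : 2 ∣ Nat.card (normalizer (S : Set G)) := by
      rw [← hm]; rcases h248 with e' | e' | e' <;> simp [e']
    obtain ⟨⟨t, ht⟩, ht2⟩ := exists_prime_orderOf_dvd_card' 2 h2
    rw [← Subgroup.orderOf_coe] at ht2
    simp only at ht2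
    intro s hs
    refine isConj_iff.2 ⟨t, ?_⟩
    have htt : t * t = 1 := by rw [← pow_two, ← ht2, pow_orderOf_eq_one]
    have hti : t⁻¹ = t := inv_eq_of_mul_eq_one_right htt
    have hts : t * s * t⁻¹ ∈ S := (mem_normalizer_iff.1 ht s).1 hs
    by_contra hne
    have hprod : s * (t * s * t⁻¹) ∈ S := S.mul_mem hs hts
    have hne1 : s * (t * s * t⁻¹) ≠ 1 := fun e' => hne (eq_inv_of_mul_eq_one_right e')
    have hct : Commute t (s * (t * s * t⁻¹)) := by
      show t * (s * (t * s * t⁻¹)) = s * (t * s * t⁻¹) * t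
      rw [hti]
      calc t * (s * (t * s * t)) = t * s * t * s * t := by group
        _ = t * s * t * (s * (t * t)) * t := by rw [htt, mul_one]
        _ = t * s * t * s * (t * t) * t := by group
        _ = s * (t * s * t) * t := by
          have hc := (h.commute hs hts).eq
          rw [hti] at hc
          rw [htt, mul_one, hc]
    have htS := h.mem_of_commute hprod hne1 hct
    have h3 := orderOf_dvd_of_pow_eq_one (h.exp3 t htS)
    rw [ht2] at h3
    norm_num at h3
  have hclassS : ∀ {x : G}, orderOf x = 3 → ∃ s : S, (s : G) ≠ 1 ∧ IsConj x s := by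
    intro x hx
    obtain ⟨g, hg⟩ := h.conj_mem (x := x) (by rw [← hx, pow_orderOf_eq_one])
    refine ⟨⟨_, hg⟩, fun e' => ?_, isConj_iff.2 ⟨g, rfl⟩⟩
    rw [mul_inv_eq_one, mul_eq_left] at e'
    rw [e', orderOf_one] at hx
    norm_num at hx
  letI := Fintype.ofFinite S
  -- coordinates
  obtain ⟨f, hf, hfe, hfe', hf1, hfm⟩ : ∃ f ∈ S, f ≠ e ∧ f ≠ e⁻¹ ∧ f ≠ 1 ∧
      (m = 4 → IsConj e f) := by
    by_cases hm4 : m = 4
    · by_contra hc
      push Not at hc
      have h1 := horb e he he1
      rw [hm4, Nat.card_eq_fintype_card, Fintype.card_subtype] at h1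
      have hsub : (Finset.univ.filter fun t : S => IsConj e (t : G)) ⊆
          {⟨e, he⟩, ⟨e⁻¹, S.inv_mem he⟩} := by
        intro t ht
        have htc := (Finset.mem_filter.1 ht).2
        simp only [Finset.mem_insert, Finset.mem_singleton]
        by_contra hh
        push Not at hh
        refine (hc t t.2 (fun e' => hh.1 (Subtype.ext e')) (fun e' => hh.2 (Subtype.ext e'))
          (fun e' => ?_)).2 htc
        rw [e'] at htc
        exact he1 (isConj_one_left.1 htc)
      have h2 := (Finset.card_le_card hsub).trans (Finset.card_insert_le _ _)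
      rw [Finset.card_singleton, h1] at h2
      omega
    · have hlt : ({⟨e, he⟩, ⟨e⁻¹, S.inv_mem he⟩, 1} : Finset S).card <
          (Finset.univ : Finset S).card := by
        rw [Finset.card_univ, ← Nat.card_eq_fintype_card, h.card]
        exact lt_of_le_of_lt ((Finset.card_insert_le _ _).trans
          (Nat.succ_le_succ (Finset.card_insert_le _ _))) (by simp)
      obtain ⟨t, -, ht⟩ := Finset.exists_mem_notMem_of_card_lt_card hlt
      simp only [Finset.mem_insert, Finset.mem_singleton, not_or] at ht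
      exact ⟨t, t.2, fun e' => ht.1 (Subtype.ext e'), fun e' => ht.2.1 (Subtype.ext e'),
        fun e' => ht.2.2 (Subtype.ext e'), fun e' => absurd e' hm4⟩
  have hb := coord_bijective h he hf he1 hf1 hfe hfe'
  have hinj : Function.Injective (coord e f) := fun p q hpq => hb.1 (Subtype.ext hpq)
  have hne : ∀ p, p ≠ 0 → coord e f p ≠ 1 := fun p hp hp' =>
    hp (hinj (hp'.trans (coord_zero e f).symm))
  -- the orbit of a coordinate as a set of coordinates
  have horbC : ∀ p, p ≠ 0 →
      (Finset.univ.filter fun q => IsConj (coord e f p) (coord e f q)).card = m := by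
    intro p hp
    rw [← horb _ (coord_mem he hf p) (hne p hp), Nat.card_eq_fintype_card, Fintype.card_subtype]
    refine Finset.card_bij (fun q _ => (⟨coord e f q, coord_mem he hf q⟩ : S)) ?_ ?_ ?_
    · exact fun q hq => Finset.mem_filter.2 ⟨Finset.mem_univ _, (Finset.mem_filter.1 hq).2⟩
    · exact fun q _ q' _ e' => hb.1 e'
    · intro t ht
      obtain ⟨q, rfl⟩ := hb.2 t
      exact ⟨q, Finset.mem_filter.2 ⟨Finset.mem_univ _, (Finset.mem_filter.1 ht).2⟩, rfl⟩
  have hnegc : ∀ p, IsConj (coord e f p) (coord e f (-p)) := fun p => by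
    rw [coord_neg h he hf]; exact hinv _ (coord_mem he hf p)
  have hzero : ∀ q, ¬ q = 0 → ¬ IsConj (coord e f q) (coord e f 0) := fun q hq hc => by
    rw [coord_zero] at hc
    exact hne q hq (isConj_one_left.1 hc)
  obtain ⟨d, a, hd, ha, hd0, hdt, hat, hlin, haneg, hasum, hamod, ha0, horth, hda, hdd, hE⟩ :=
    exists_data h he hf hb hinv hperf
  have hsum9 : ∀ χ, ∃ k : ℕ, (d χ : ℤ) + 2 * (a χ (1, 0) + a χ (0, 1) + a χ (1, 1) + a χ (1, 2)) =
      9 * k := by
    intro χ
    obtain ⟨k, hk⟩ := hasum χ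
    refine ⟨k, ?_⟩
    simp only [Fintype.sum_prod_type, Fin.sum_univ_three] at hk
    have e1 := haneg χ (1, 0)
    have e2 := haneg χ (0, 1)
    have e3 := haneg χ (1, 1)
    have e4 := haneg χ (1, 2)
    rw [show (-((1, 0) : Fin 3 × Fin 3)) = (2, 0) from rfl] at e1
    rw [show (-((0, 1) : Fin 3 × Fin 3)) = (0, 2) from rfl] at e2
    rw [show (-((1, 1) : Fin 3 × Fin 3)) = (2, 2) from rfl] at e3
    rw [show (-((1, 2) : Fin 3 × Fin 3)) = (2, 1) from rfl] at e4
    have e0 := ha0 χ
    rw [show (0 : Fin 3 × Fin 3) = (0, 0) from rfl] at e0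
    linarith
  rcases h248 with hm2 | hm4 | hm8'
  · -- four classes
    exfalso
    let q : Fin 4 → Fin 3 × Fin 3 := ![(1, 0), (0, 1), (1, 1), (1, 2)]
    have hq0 : ∀ H, q H ≠ 0 := by decide
    have hpne : ∀ p : Fin 3 × Fin 3, p ≠ 0 → p ≠ -p := by decide
    have hqK : ∀ H K : Fin 4, H ≠ K → ¬ ((![(1, 0), (0, 1), (1, 1), (1, 2)] K : Fin 3 × Fin 3) =
        ![(1, 0), (0, 1), (1, 1), (1, 2)] H ∨ (![(1, 0), (0, 1), (1, 1), (1, 2)] K : Fin 3 × Fin 3) =
        -![(1, 0), (0, 1), (1, 1), (1, 2)] H) := by decide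
    have hqcard : ∀ H K : Fin 4, H ≠ K →
        (Finset.univ.filter fun z : (Fin 3 × Fin 3) × (Fin 3 × Fin 3) =>
          (z.1 = q H ∨ z.1 = -q H) ∧ (z.2 = q H ∨ z.2 = -q H) ∧ z.1 + z.2 = q K).card = 0 := by
      decide
    have hqeq : ∀ H K : Fin 4, (q K = q H ∨ q K = -q H) ↔ H = K := by decide
    have hR : ∀ p r, p ≠ 0 → (IsConj (coord e f p) (coord e f r) ↔ r = p ∨ r = -p) := by
      intro p r hp
      refine ⟨fun hc => ?_, fun hc => ?_⟩
      · have hpair : ({p, -p} : Finset (Fin 3 × Fin 3)) =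
            Finset.univ.filter fun q => IsConj (coord e f p) (coord e f q) := by
          refine Finset.eq_of_subset_of_card_le ?_ ?_
          · intro x hx
            simp only [Finset.mem_insert, Finset.mem_singleton] at hx
            rcases hx with rfl | rfl
            · exact Finset.mem_filter.2 ⟨Finset.mem_univ _, IsConj.refl _⟩
            · exact Finset.mem_filter.2 ⟨Finset.mem_univ _, hnegc p⟩
          · rw [horbC p hp, hm2, Finset.card_pair]
            exact hpne p hp
        have : r ∈ Finset.univ.filter fun q => IsConj (coord e f p) (coord e f q) :=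
          Finset.mem_filter.2 ⟨Finset.mem_univ r, hc⟩
        rw [← hpair] at this
        simpa using this
      · rcases hc with rfl | rfl
        · exact IsConj.refl _
        · exact hnegc p
    refine not_four (Char.trivialIrr G) d (fun χ H => a χ (q H)) hdt (fun H => hat _) hd0 hlin
      (fun H K => ?_) (fun H => hda _ (hq0 H)) (fun χ => ?_) (fun χ H => hamod χ _) ?_
    · rw [horth _ _ (hq0 H) (hq0 K)]
      exact if_congr ((hR _ _ (hq0 H)).trans (hqeq H K)) rfl rfl
    · obtain ⟨k, hk⟩ := hsum9 χ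
      simp only [Fin.sum_univ_four, q, Matrix.cons_val_zero, Matrix.cons_val_one,
        Matrix.cons_val]
      omega
    · have hz : ∀ H K, H ≠ K →
          ∑ χ, (a χ (q H) : ℝ) ^ 2 * (a χ (q K) : ℝ) / (d χ : ℝ) = 0 := by
        intro H K hHK
        have h1 := hE (q H) (q K) (fun r => r = q H ∨ r = -q H) (hq0 H) (hq0 K)
          (fun r => hR _ r (hq0 H)) (hqK H K hHK)
        rw [hqcard H K hHK] at h1
        simpa [Nat.card_pos.ne'] using h1
      have hexp : ∀ χ : IrrCharacter G,
          (((∑ H, a χ (q H) ^ 2) * (∑ H, a χ (q H)) - ∑ H, a χ (q H) ^ 3 : ℤ) : ℝ) / (d χ : ℝ) =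
          ∑ H : Fin 4, ∑ K ∈ Finset.univ.erase H,
            (a χ (q H) : ℝ) ^ 2 * (a χ (q K) : ℝ) / (d χ : ℝ) := by
        intro χ
        push_cast
        rw [Finset.sum_mul, ← Finset.sum_sub_distrib, Finset.sum_div]
        refine Finset.sum_congr rfl fun H _ => ?_
        rw [← Finset.add_sum_erase _ _ (Finset.mem_univ H), mul_add, Finset.mul_sum, ← Finset.sum_div]
        ring
      simp only [hexp]
      rw [Finset.sum_comm]
      refine Finset.sum_eq_zero fun H _ => ?_
      rw [Finset.sum_comm]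
      exact Finset.sum_eq_zero fun K hK => hz H K (Finset.ne_of_mem_erase hK).symm
  · -- two classes
    have hef : IsConj (coord e f (1, 0)) (coord e f (0, 1)) := by
      simpa [coord] using hfm hm4
    let RA : Fin 3 × Fin 3 → Prop := fun r => r = (1, 0) ∨ r = (2, 0) ∨ r = (0, 1) ∨ r = (0, 2)
    let RB : Fin 3 × Fin 3 → Prop := fun r => r = (1, 1) ∨ r = (2, 2) ∨ r = (1, 2) ∨ r = (2, 1)
    have hA : ∀ r, IsConj (coord e f (1, 0)) (coord e f r) ↔ RA r := by
      have hpair : ({(1, 0), (2, 0), (0, 1), (0, 2)} : Finset (Fin 3 × Fin 3)) =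
          Finset.univ.filter fun q => IsConj (coord e f (1, 0)) (coord e f q) := by
        refine Finset.eq_of_subset_of_card_le ?_ (by rw [horbC _ (by decide), hm4]; decide)
        intro x hx
        simp only [Finset.mem_insert, Finset.mem_singleton] at hx
        rw [Finset.mem_filter]
        refine ⟨Finset.mem_univ _, ?_⟩
        rcases hx with rfl | rfl | rfl | rfl
        · exact IsConj.refl _
        · exact hnegc (1, 0)
        · exact hef
        · exact hef.trans (hnegc (0, 1))
      intro r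
      have := Finset.ext_iff.1 hpair r
      simpa [RA] using this.symm
    have hRB : ∀ x : Fin 3 × Fin 3, x ≠ 0 →
        ¬ (x = (1, 0) ∨ x = (2, 0) ∨ x = (0, 1) ∨ x = (0, 2)) →
        x ∈ ({(1, 1), (2, 2), (1, 2), (2, 1)} : Finset (Fin 3 × Fin 3)) := by decide
    have hB : ∀ r, IsConj (coord e f (1, 1)) (coord e f r) ↔ RB r := by
      have hsub : Finset.univ.filter (fun q => IsConj (coord e f (1, 1)) (coord e f q)) ⊆
          {(1, 1), (2, 2), (1, 2), (2, 1)} := by
        intro x hx
        have hc := (Finset.mem_filter.1 hx).2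
        have hx0 : x ≠ 0 := fun e' => hzero _ (by decide) (e' ▸ hc)
        have hxA : ¬ RA x := fun e' => by
          have h1 := ((hA x).2 e').trans hc.symm
          rw [hA] at h1
          revert h1
          simp [RA]
        exact hRB x hx0 hxA
      have hpair := Finset.eq_of_subset_of_card_le hsub (by rw [horbC _ (by decide), hm4]; decide)
      intro r
      have := Finset.ext_iff.1 hpair r
      simpa [RB] using this
    have hAeq : ∀ χ, a χ (0, 1) = a χ (1, 0) := fun χ => by
      have h1 := Char.isClassFunction_eq_of_isConj (Char.irr_isClassFunction χ.2) hef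
      rw [ha, ha] at h1
      exact_mod_cast h1.symm
    have hBeq : ∀ χ, a χ (1, 2) = a χ (1, 1) := fun χ => by
      have h1 := Char.isClassFunction_eq_of_isConj (Char.irr_isClassFunction χ.2)
        ((hB (1, 2)).2 (by simp [RB]))
      rw [ha, ha] at h1
      exact_mod_cast h1.symm
    have hnot : ¬ IsConj (coord e f (1, 0)) (coord e f (1, 1)) := by
      rw [hA]; simp [RA]
    refine order_360 (Char.trivialIrr G) d (fun χ => a χ (1, 0)) (fun χ => a χ (1, 1)) _ hdt
      (hat _) (hat _) hd0 hlin ?_ ?_ ?_ (hda _ (by decide)) hdd (fun χ => ?_)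
      (fun χ => hamod χ _) (fun χ => hamod χ _) ?_ ?_
    · have := horth (1, 0) (1, 0) (by decide) (by decide)
      rw [if_pos (IsConj.refl _)] at this
      simpa [sq] using this
    · have := horth (1, 1) (1, 1) (by decide) (by decide)
      rw [if_pos (IsConj.refl _)] at this
      simpa [sq] using this
    · have := horth (1, 0) (1, 1) (by decide) (by decide)
      rwa [if_neg hnot] at this
    · obtain ⟨k, hk⟩ := hsum9 χ
      rw [hAeq, hBeq] at hk
      omega
    · have h1 := hE (1, 0) (1, 1) RA (by decide) (by decide) hA (by simp [RA])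
      rw [show (Finset.univ.filter fun z : (Fin 3 × Fin 3) × (Fin 3 × Fin 3) =>
          RA z.1 ∧ RA z.2 ∧ z.1 + z.2 = (1, 1)).card = 2 by decide] at h1
      rw [h1]; norm_num
    · have h1 := hE (1, 1) (1, 0) RB (by decide) (by decide) hB (by simp [RB])
      rw [show (Finset.univ.filter fun z : (Fin 3 × Fin 3) × (Fin 3 × Fin 3) =>
          RB z.1 ∧ RB z.2 ∧ z.1 + z.2 = (1, 0)).card = 2 by decide] at h1
      rw [h1]; norm_num
  · -- one class contradicts the hypothesis
    exfalso
    obtain ⟨x, y, hx, hy, hxy⟩ := hclasses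
    obtain ⟨s, hs1, hsx⟩ := hclassS hx
    obtain ⟨t, ht1, hty⟩ := hclassS hy
    have hst : IsConj (s : G) t := by
      have h1 := horb s s.2 hs1
      rw [hm8', Nat.card_eq_fintype_card, Fintype.card_subtype] at h1
      have hsub : (Finset.univ.filter fun z : S => IsConj (s : G) z) ⊆ Finset.univ.erase 1 := by
        intro z hz
        refine Finset.mem_erase.2 ⟨fun e' => hs1 ?_, Finset.mem_univ _⟩
        have := (Finset.mem_filter.1 hz).2
        rw [e', OneMemClass.coe_one] at this
        exact isConj_one_left.1 this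
      have heq := Finset.eq_of_subset_of_card_le hsub (by
        rw [h1, Finset.card_erase_of_mem (Finset.mem_univ _), Finset.card_univ,
          ← Nat.card_eq_fintype_card, h.card])
      have : t ∈ Finset.univ.erase (1 : S) :=
        Finset.mem_erase.2 ⟨fun e' => ht1 (by rw [e', OneMemClass.coe_one]), Finset.mem_univ _⟩
      rw [← heq] at this
      exact (Finset.mem_filter.1 this).2
    obtain ⟨g, hg⟩ := isConj_iff.1 ((hsx.trans hst).trans hty.symm)
    exact hxy g hg

end Cfsg.Agent.ThreeNine
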